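import Cfsg.Agent.H539.BlockRed
import Cfsg.Agent.H540.HalfBound
import Cfsg.Agent.H540.Swap

/-!
# Block systems as invariant equivalence relations

Sizes of classes, composition of block systems, extension of a relation from one block of a system
of blocks, and the class number bound for groups with blocks of size two.
-/

set_option autoImplicit false

namespace Cfsg.Agent.H540.Blocks

open MulAction Cfsg.Agent.H539.BlockRed Cfsg.Agent.H540.ClassNum

section Basic

variable {G : Type*} [Group G] {α : Type*} [MulAction G α]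

/-- invariance of an equivalence relation -/
def Inv (G : Type*) [Group G] {α : Type*} [MulAction G α] (r : Setoid α) : Prop :=
  ∀ (g : G) (x y : α), r x y → r (g • x) (g • y)

/-- the class of `q` -/
abbrev Cls {α : Type*} (r : Setoid α) (q : Quotient r) : Type _ := {x : α // Quotient.mk r x = q}

theorem card_cls_eq [IsPretransitive G α] {r : Setoid α} (hr : Inv G r) (q q' : Quotient r) :
    Nat.card (Cls r q) = Nat.card (Cls r q') := by
  obtain ⟨x, rfl⟩ := Quotient.exists_rep q
  obtain ⟨y, rfl⟩ := Quotient.exists_rep q'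
  obtain ⟨g, hg⟩ := exists_smul_eq G x y
  apply Nat.card_congr
  exact
    { toFun := fun z => ⟨g • z.1, by
        rw [← hg]
        exact Quotient.sound (hr g _ _ (Quotient.exact z.2))⟩
      invFun := fun z => ⟨g⁻¹ • z.1, by
        have h1 : r (g⁻¹ • z.1) (g⁻¹ • y) := hr g⁻¹ _ _ (Quotient.exact z.2)
        have h2 : g⁻¹ • y = x := by rw [← hg, inv_smul_smul]
        rw [h2] at h1
        exact Quotient.sound h1⟩
      left_inv := fun z => Subtype.ext (inv_smul_smul g z.1)
      right_inv := fun z => Subtype.ext (smul_inv_smul g z.1) }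

theorem card_eq_mul [Finite α] [IsPretransitive G α] {r : Setoid α} (hr : Inv G r) (q : Quotient r) :
    Nat.card α = Nat.card (Quotient r) * Nat.card (Cls r q) := by
  classical
  have := Fintype.ofFinite (Quotient r)
  have h1 : Nat.card α = ∑ q' : Quotient r, Nat.card (Cls r q') := by
    rw [← Nat.card_sigma]
    exact Nat.card_congr (Equiv.sigmaFiberEquiv (Quotient.mk r)).symm
  rw [h1, Finset.sum_congr rfl (fun q' _ => card_cls_eq hr q' q), Finset.sum_const,
    Finset.card_univ, ← Nat.card_eq_fintype_card, smul_eq_mul]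

theorem two_le_cls [Finite α] [IsPretransitive G α] {r : Setoid α} (hr : Inv G r) (h : r ≠ ⊥)
    (q : Quotient r) : 2 ≤ Nat.card (Cls r q) := by
  by_contra hlt
  apply h
  rw [eq_bot_iff]
  intro x y hxy
  have h1 : Nat.card (Cls r (Quotient.mk r y)) ≤ 1 := by
    rw [card_cls_eq hr _ q]; omega
  have h2 : Subsingleton (Cls r (Quotient.mk r y)) := (Finite.card_le_one_iff_subsingleton).1 h1
  have h3 := h2.elim (⟨x, Quotient.sound hxy⟩ : Cls r (Quotient.mk r y)) ⟨y, rfl⟩
  exact congrArg Subtype.val h3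

theorem two_le_quot [Finite α] [Nonempty α] {r : Setoid α} (h : r ≠ ⊤) :
    2 ≤ Nat.card (Quotient r) := by
  by_contra hlt
  apply h
  rw [eq_top_iff]
  intro x y _
  have h1 : Nat.card (Quotient r) ≤ 1 := by omega
  have h2 : Subsingleton (Quotient r) := (Finite.card_le_one_iff_subsingleton).1 h1
  exact Quotient.exact (h2.elim (Quotient.mk r x) (Quotient.mk r y))

/-- the action on the classes is transitive -/
theorem quot_pretransitive [IsPretransitive G α] (r : Setoid α) (hr : Inv G r) :
    IsPretransitive (quotHom r hr).range (Quotient r) := by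
  refine ⟨fun q q' => ?_⟩
  obtain ⟨x, rfl⟩ := Quotient.exists_rep q
  obtain ⟨y, rfl⟩ := Quotient.exists_rep q'
  obtain ⟨g, hg⟩ := exists_smul_eq G x y
  refine ⟨⟨quotHom r hr g, g, rfl⟩, ?_⟩
  change quotHom r hr g (Quotient.mk r x) = Quotient.mk r y
  exact congrArg (Quotient.mk r) hg

/-- pull back of an invariant relation on the classes -/
theorem inv_comap {r : Setoid α} (hr : Inv G r) {r' : Setoid (Quotient r)}
    (hr' : Inv (quotHom r hr).range r') : Inv G (Setoid.comap (Quotient.mk r) r') := by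
  intro g x y hxy
  have h1 := hr' ⟨quotHom r hr g, g, rfl⟩ _ _ hxy
  exact h1

theorem card_quot_comap {r : Setoid α} {r' : Setoid (Quotient r)} :
    Nat.card (Quotient (Setoid.comap (Quotient.mk r) r')) = Nat.card (Quotient r') := by
  refine Nat.card_congr (Equiv.ofBijective
    (Quotient.map' (s₁ := Setoid.comap (Quotient.mk r) r') (s₂ := r') (Quotient.mk r) (fun a b h => h)) ⟨?_, ?_⟩)
  · intro a b
    refine Quotient.inductionOn₂ a b fun x y h => ?_
    have h1 : r' (Quotient.mk r x) (Quotient.mk r y) := Quotient.exact h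
    exact Quotient.sound h1
  · intro b
    refine Quotient.inductionOn b fun q => ?_
    refine Quotient.inductionOn q fun x => ?_
    exact ⟨Quotient.mk _ x, rfl⟩

/-- **Composition of block systems**: if the action on the classes of `r` is not primitive, there is
a coarser invariant relation with larger classes. -/
theorem exists_coarser [Finite α] [IsPretransitive G α] {r : Setoid α} (hr : Inv G r) (hbot : r ≠ ⊥)
    (h2 : 2 ≤ Nat.card (Quotient r))
    (hprim : ¬ IsPreprimitive (quotHom r hr).range (Quotient r)) (q₀ : Quotient r) :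
    ∃ r'' : Setoid α, Inv G r'' ∧ r'' ≠ ⊥ ∧ r'' ≠ ⊤ ∧
      (∀ q : Quotient r'', 2 * Nat.card (Cls r q₀) ≤ Nat.card (Cls r'' q)) := by
  have hpt := quot_pretransitive r hr
  rcases exists_setoid (G := (quotHom r hr).range) (α := Quotient r) hprim with h | ⟨r', hr', hb', ht'⟩
  · exfalso
    have hsub : Subsingleton (Quotient r) := by
      refine ⟨fun a b => ?_⟩
      obtain ⟨g, hg⟩ := exists_smul_eq (quotHom r hr).range a b
      rw [h g, one_smul] at hg
      exact hg
    have := (Finite.card_le_one_iff_subsingleton (α := Quotient r)).2 hsub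
    omega
  · have hr'' : Inv G (Setoid.comap (Quotient.mk r) r') := inv_comap hr hr'
    obtain ⟨x₀, hx₀⟩ := Quotient.exists_rep q₀
    refine ⟨Setoid.comap (Quotient.mk r) r', hr'', ?_, ?_, ?_⟩
    · intro hb
      apply hbot
      rw [eq_bot_iff]
      intro x y hxy
      have h1 : (Setoid.comap (Quotient.mk r) r') x y := by
        change r' (Quotient.mk r x) (Quotient.mk r y)
        rw [Quotient.sound hxy]
      rw [hb] at h1
      exact h1
    · intro ht
      apply ht'
      rw [eq_top_iff]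
      intro a b _
      obtain ⟨x, rfl⟩ := Quotient.exists_rep a
      obtain ⟨y, rfl⟩ := Quotient.exists_rep b
      have h1 : (Setoid.comap (Quotient.mk r) r') x y := by rw [ht]; trivial
      exact h1
    · intro q
      have e1 := card_eq_mul hr'' q
      have e2 := card_eq_mul hr q₀
      rw [card_quot_comap] at e1
      have e3 := card_eq_mul (G := (quotHom r hr).range) hr' (Quotient.mk r' q₀)
      have e4 := two_le_cls (G := (quotHom r hr).range) hr' hb' (Quotient.mk r' q₀)
      have hpos : 0 < Nat.card (Quotient r') := by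
        have : Nonempty (Quotient r') := ⟨Quotient.mk r' q₀⟩
        exact Nat.card_pos
      rw [e3] at e2
      rw [e2, mul_assoc] at e1
      have e5 := Nat.eq_of_mul_eq_mul_left hpos e1
      rw [← e5]
      exact Nat.mul_le_mul_right _ e4

end Basic

section Ext

variable {G : Type*} [Group G] {α : Type*} [MulAction G α]

/-- an element moving a point of a block into the block preserves the block. -/
theorem mem_of_inv {r : Setoid α} (hr : Inv G r) {q : Quotient r} {g : G} {x : α}
    (hx : Quotient.mk r x = q) (hgx : Quotient.mk r (g • x) = q) {y : α} (hy : Quotient.mk r y = q) :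
    Quotient.mk r (g • y) = q := by
  rw [← hgx]
  exact Quotient.sound (hr g _ _ (Quotient.exact (hy.trans hx.symm)))

/-- Let `r` be an invariant relation, `q` a class, and `r₁` a relation on `q` that is invariant
under every element preserving `q`. -/
def extRel (G : Type*) [Group G] {α : Type*} [MulAction G α] (r : Setoid α) (hr : Inv G r)
    (q : Quotient r) (r₁ : Setoid (Cls r q))
    (hr₁ : ∀ (g : G) (x y : Cls r q) (hx : Quotient.mk r (g • x.1) = q)
      (hy : Quotient.mk r (g • y.1) = q), r₁ x y → r₁ ⟨g • x.1, hx⟩ ⟨g • y.1, hy⟩)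
    [IsPretransitive G α] : Setoid α where
  r x y := ∃ (g : G) (hx : Quotient.mk r (g • x) = q) (hy : Quotient.mk r (g • y) = q),
    r₁ ⟨g • x, hx⟩ ⟨g • y, hy⟩
  iseqv := by
    refine ⟨fun x => ?_, ?_, ?_⟩
    · obtain ⟨x₀, hx₀⟩ := Quotient.exists_rep q
      obtain ⟨g, hg⟩ := exists_smul_eq G x x₀
      exact ⟨g, by rw [hg, hx₀], by rw [hg, hx₀], r₁.refl _⟩
    · rintro x y ⟨g, hx, hy, h⟩
      exact ⟨g, hy, hx, r₁.symm h⟩
    · rintro x y z ⟨g, hx, hy, h⟩ ⟨k, hy', hz, h'⟩
      have e : ∀ w : α, k • w = (k * g⁻¹) • g • w := fun w => by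
        rw [smul_smul, inv_mul_cancel_right]
      have h1 : Quotient.mk r ((k * g⁻¹) • g • x) = q := by
        refine mem_of_inv hr hy (g := k * g⁻¹) ?_ hx
        rw [← e]; exact hy'
      have h2 : Quotient.mk r ((k * g⁻¹) • g • y) = q := by rw [← e]; exact hy'
      have h3 := hr₁ (k * g⁻¹) ⟨g • x, hx⟩ ⟨g • y, hy⟩ h1 h2 h
      refine ⟨k, by rw [e]; exact h1, hz, ?_⟩
      refine r₁.trans ?_ h'
      have e1 : (⟨(k * g⁻¹) • g • x, h1⟩ : Cls r q) = ⟨k • x, by rw [e]; exact h1⟩ :=
        Subtype.ext (e x).symm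
      have e2 : (⟨(k * g⁻¹) • g • y, h2⟩ : Cls r q) = ⟨k • y, hy'⟩ := Subtype.ext (e y).symm
      rw [← e1, ← e2]
      exact h3

variable [IsPretransitive G α]

theorem inv_extRel (r : Setoid α) (hr : Inv G r)
    (q : Quotient r) (r₁ : Setoid (Cls r q))
    (hr₁ : ∀ (g : G) (x y : Cls r q) (hx : Quotient.mk r (g • x.1) = q)
      (hy : Quotient.mk r (g • y.1) = q), r₁ x y → r₁ ⟨g • x.1, hx⟩ ⟨g • y.1, hy⟩) :
    Inv G (extRel G r hr q r₁ hr₁) := by
  rintro g x y ⟨k, hx, hy, h⟩
  have e : ∀ w : α, (k * g⁻¹) • g • w = k • w := fun w => by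
    rw [smul_smul, inv_mul_cancel_right]
  refine ⟨k * g⁻¹, by rw [e]; exact hx, by rw [e]; exact hy, ?_⟩
  have e1 : (⟨(k * g⁻¹) • g • x, by rw [e]; exact hx⟩ : Cls r q) = ⟨k • x, hx⟩ := Subtype.ext (e x)
  have e2 : (⟨(k * g⁻¹) • g • y, by rw [e]; exact hy⟩ : Cls r q) = ⟨k • y, hy⟩ := Subtype.ext (e y)
  rw [e1, e2]
  exact h

/-- inside the block `q` the extended relation is `r₁`. -/
theorem extRel_iff (r : Setoid α) (hr : Inv G r)
    (q : Quotient r) (r₁ : Setoid (Cls r q))
    (hr₁ : ∀ (g : G) (x y : Cls r q) (hx : Quotient.mk r (g • x.1) = q)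
      (hy : Quotient.mk r (g • y.1) = q), r₁ x y → r₁ ⟨g • x.1, hx⟩ ⟨g • y.1, hy⟩)
    (x y : Cls r q) : (extRel G r hr q r₁ hr₁) x.1 y.1 ↔ r₁ x y := by
  constructor
  · rintro ⟨g, hx, hy, h⟩
    have h1 : Quotient.mk r (g⁻¹ • (⟨g • x.1, hx⟩ : Cls r q).1) = q := by
      change Quotient.mk r (g⁻¹ • g • x.1) = q
      rw [inv_smul_smul]; exact x.2
    have h2 : Quotient.mk r (g⁻¹ • (⟨g • y.1, hy⟩ : Cls r q).1) = q := by
      change Quotient.mk r (g⁻¹ • g • y.1) = q
      rw [inv_smul_smul]; exact y.2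
    have h3 := hr₁ g⁻¹ ⟨g • x.1, hx⟩ ⟨g • y.1, hy⟩ h1 h2 h
    have e1 : (⟨g⁻¹ • (⟨g • x.1, hx⟩ : Cls r q).1, h1⟩ : Cls r q) = x := Subtype.ext (inv_smul_smul _ _)
    have e2 : (⟨g⁻¹ • (⟨g • y.1, hy⟩ : Cls r q).1, h2⟩ : Cls r q) = y := Subtype.ext (inv_smul_smul _ _)
    rwa [e1, e2] at h3
  · intro h
    refine ⟨1, by rw [one_smul]; exact x.2, by rw [one_smul]; exact y.2, ?_⟩
    have e1 : (⟨(1 : G) • x.1, by rw [one_smul]; exact x.2⟩ : Cls r q) = x := Subtype.ext (one_smul _ _)
    have e2 : (⟨(1 : G) • y.1, by rw [one_smul]; exact y.2⟩ : Cls r q) = y := Subtype.ext (one_smul _ _)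
    rw [e1, e2]
    exact h

/-- the extended relation is finer than `r`. -/
theorem extRel_le (r : Setoid α) (hr : Inv G r)
    (q : Quotient r) (r₁ : Setoid (Cls r q))
    (hr₁ : ∀ (g : G) (x y : Cls r q) (hx : Quotient.mk r (g • x.1) = q)
      (hy : Quotient.mk r (g • y.1) = q), r₁ x y → r₁ ⟨g • x.1, hx⟩ ⟨g • y.1, hy⟩)
    {x y : α} (h : (extRel G r hr q r₁ hr₁) x y) : r x y := by
  obtain ⟨g, hx, hy, _⟩ := h
  have h1 : r (g • x) (g • y) := Quotient.exact (hx.trans hy.symm)
  have h2 := hr g⁻¹ _ _ h1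
  rwa [inv_smul_smul, inv_smul_smul] at h2

/-- the classes of the extended relation in the block `q` are the classes of `r₁`. -/
theorem card_cls_extRel (r : Setoid α) (hr : Inv G r)
    (q : Quotient r) (r₁ : Setoid (Cls r q))
    (hr₁ : ∀ (g : G) (x y : Cls r q) (hx : Quotient.mk r (g • x.1) = q)
      (hy : Quotient.mk r (g • y.1) = q), r₁ x y → r₁ ⟨g • x.1, hx⟩ ⟨g • y.1, hy⟩)
    (x : Cls r q) :
    Nat.card (Cls (extRel G r hr q r₁ hr₁) (Quotient.mk _ x.1)) = Nat.card (Cls r₁ (Quotient.mk r₁ x)) := by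
  apply Nat.card_congr
  exact
    { toFun := fun y => ⟨⟨y.1, by
          have h1 := Quotient.exact y.2
          have h2 := extRel_le r hr q r₁ hr₁ h1
          exact (Quotient.sound h2).trans x.2⟩, by
          have h1 := Quotient.exact y.2
          have h2 := extRel_le r hr q r₁ hr₁ h1
          exact Quotient.sound ((extRel_iff r hr q r₁ hr₁ ⟨y.1, (Quotient.sound h2).trans x.2⟩ x).1 h1)⟩
      invFun := fun y => ⟨y.1.1, Quotient.sound ((extRel_iff r hr q r₁ hr₁ y.1 x).2 (Quotient.exact y.2))⟩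
      left_inv := fun y => rfl
      right_inv := fun y => rfl }

end Ext

end Cfsg.Agent.H540.Blocks
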