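import Cfsg.Agent.OrdDiv.Main
import Cfsg.Prelude.Def_Classification2

/-!
# The known simple groups of order prime to 3, 5 or 7

`filter`: `A₅`, `A₆`, linear, symplectic, unitary, `G₂`, `³D₄`, Suzuki, Ree, `²F₄`, Tits, `M₁₁`, `M₁₂`, `J₃`.
-/

set_option autoImplicit false

namespace Cfsg.Agent.H540.Filter

open Cfsg

theorem key {q r : ℕ} (hr : r = 3 ∨ r = 5 ∨ r = 7) : r ∣ q ∨ r ∣ q ^ 4 - 1 ∨ r ∣ q ^ 6 - 1 := by
  by_cases h : r ∣ q
  · exact Or.inl h
  right
  have h1 : 1 ≤ q := by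
    rcases Nat.eq_zero_or_pos q with h0 | h0
    · rw [h0] at h; simp at h
    · exact h0
  rcases hr with rfl | rfl | rfl
  · left
    refine (Nat.modEq_iff_dvd' (Nat.one_le_pow _ _ h1)).1 ?_
    have : q % 3 = 1 ∨ q % 3 = 2 := by omega
    rcases this with h | h <;> simp [Nat.ModEq, Nat.pow_mod, h]
  · left
    refine (Nat.modEq_iff_dvd' (Nat.one_le_pow _ _ h1)).1 ?_
    have : q % 5 = 1 ∨ q % 5 = 2 ∨ q % 5 = 3 ∨ q % 5 = 4 := by omega
    rcases this with h | h | h | h <;> simp [Nat.ModEq, Nat.pow_mod, h]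
  · right
    refine (Nat.modEq_iff_dvd' (Nat.one_le_pow _ _ h1)).1 ?_
    have : q % 7 = 1 ∨ q % 7 = 2 ∨ q % 7 = 3 ∨ q % 7 = 4 ∨ q % 7 = 5 ∨ q % 7 = 6 := by omega
    rcases this with h | h | h | h | h | h <;> simp [Nat.ModEq, Nat.pow_mod, h]

/-- the products occurring for the classical groups -/
theorem dvd_prod {q r a m : ℕ} (hr : r = 3 ∨ r = 5 ∨ r = 7) (ha : 1 ≤ a) (hm : 3 ≤ m) :
    r ∣ q ^ a * ∏ i ∈ Finset.range m, (q ^ (2 * (i + 1)) - 1) := by
  rcases key (q := q) hr with h | h | h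
  · exact (h.trans (dvd_pow_self q (by omega))).mul_right _
  · exact (h.trans (Finset.dvd_prod_of_mem (fun i => q ^ (2 * (i + 1)) - 1)
      (Finset.mem_range.2 (show 1 < m by omega)))).mul_left _
  · exact (h.trans (Finset.dvd_prod_of_mem (fun i => q ^ (2 * (i + 1)) - 1)
      (Finset.mem_range.2 (show 2 < m by omega)))).mul_left _

theorem sub_dvd (q a b : ℕ) : q ^ a - 1 ∣ q ^ (a * b) - 1 := by
  rw [pow_mul]
  simpa using Nat.sub_one_dvd_pow_sub_one (q ^ a) b

theorem coprime_of {r d : ℕ} (hr : r = 3 ∨ r = 5 ∨ r = 7) (hd : d ∣ 4) : r.Coprime d := by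
  refine Nat.Coprime.coprime_dvd_right hd ?_
  rcases hr with rfl | rfl | rfl <;> norm_num

/-- with denominator dividing `3` -/
theorem of_three {r d c X : ℕ} (hr : r = 3 ∨ r = 5 ∨ r = 7) (hd : d ∣ 3) (h : d * c = X)
    (h9 : r = 3 → 9 ∣ X) (hX : r ∣ X) : r ∣ c := by
  rw [← h] at h9 hX
  rcases hr with rfl | rfl | rfl
  · have h1 := h9 rfl
    rcases (Nat.dvd_prime Nat.prime_three).1 hd with rfl | rfl
    · omega
    · omega
  · exact (Nat.Coprime.coprime_dvd_right hd (by norm_num)).dvd_of_dvd_mul_left hX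
  · exact (Nat.Coprime.coprime_dvd_right hd (by norm_num)).dvd_of_dvd_mul_left hX

theorem three_dvd {q : ℕ} (h : ¬ 3 ∣ q) (k : ℕ) : 3 ∣ q ^ (2 * k) - 1 := by
  have h1 : q ^ 2 ≡ 1 [MOD 3] := by
    have : q % 3 = 1 ∨ q % 3 = 2 := by omega
    rcases this with h | h <;> simp [Nat.ModEq, Nat.pow_mod, h]
  have h2 : q ^ (2 * k) ≡ 1 [MOD 3] := by
    rw [pow_mul]
    simpa using h1.pow k
  have h3 : 1 ≤ q ^ (2 * k) := Nat.one_le_pow _ _ (by
    rcases Nat.eq_zero_or_pos q with h0 | h0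
    · simp [h0] at h
    · exact h0)
  exact (Nat.modEq_iff_dvd' h3).1 h2.symm

theorem nine {q a : ℕ} (ha : 2 ≤ a) (Y : ℕ) : 9 ∣ q ^ a * ((q ^ 2 - 1) * (q ^ 6 - 1) * Y) := by
  by_cases h : 3 ∣ q
  · apply Dvd.dvd.mul_right
    exact (show (9 : ℕ) = 3 ^ 2 by norm_num) ▸ (pow_dvd_pow 3 ha).trans (pow_dvd_pow_of_dvd h a)
  · apply Dvd.dvd.mul_left
    apply Dvd.dvd.mul_right
    exact (show (9 : ℕ) = 3 * 3 by norm_num) ▸ mul_dvd_mul (three_dvd h 1) (three_dvd h 3)

/-- `r ∣ q ^ a (q ^ 8 - 1) (q ^ 12 - 1) Y` -/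
theorem exc {q r a : ℕ} (hr : r = 3 ∨ r = 5 ∨ r = 7) (ha : 1 ≤ a) (Y : ℕ) :
    r ∣ q ^ a * ((q ^ 8 - 1) * (q ^ 12 - 1) * Y) := by
  rcases key (q := q) hr with h | h | h
  · exact (h.trans (dvd_pow_self q (by omega))).mul_right _
  · exact (((h.trans (sub_dvd q 4 2)).mul_right _).mul_right _).mul_left _
  · exact (((h.trans (sub_dvd q 6 2)).mul_left _).mul_right _).mul_left _

theorem alt_card {S : Type*} [Group S] {n : ℕ} (hn : 5 ≤ n) (e : S ≃* ↥(alternatingGroup (Fin n))) :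
    n.factorial = 2 * Nat.card S := OrdDiv.alt_card hn e

theorem spor (T : OrdDiv.OrderTable.{0}) {G : Type} [Group G] (h : IsSporadicGroup G) :
    105 ∣ Nat.card G ∨ Spor.IsoM11 G ∨ Spor.IsoM12 G ∨ Spor.IsoJ3 G := by
  have key : ∀ (g : OrdDiv.Grp) (o : ℕ), (g, o) ∈ OrdDiv.spor → OrdDiv.Real g G → Nat.card G = o :=
    fun g o hg hr => T.spor G (g, o) hg hr
  rcases h with h | h | h | h | h | h | h | h | h | h | h | h | h | h | h | h | h | h | h | h | h | h | h | h | h | h
  · exact Or.inr (Or.inl h)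
  · exact Or.inr (Or.inr (Or.inl h))
  · left; rw [key .m22 443520 (by simp [OrdDiv.spor]) h]; norm_num
  · left; rw [key .m23 10200960 (by simp [OrdDiv.spor]) h]; norm_num
  · left; rw [key .m24 244823040 (by simp [OrdDiv.spor]) h]; norm_num
  · left; rw [key .j1 175560 (by simp [OrdDiv.spor]) h]; norm_num
  · left; rw [key .j2 604800 (by simp [OrdDiv.spor]) h]; norm_num
  · exact Or.inr (Or.inr (Or.inr h))
  · left; rw [key .j4 86775571046077562880 (by simp [OrdDiv.spor]) h]; norm_num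
  · left; rw [key .co1 4157776806543360000 (by simp [OrdDiv.spor]) h]; norm_num
  · left; rw [key .co2 42305421312000 (by simp [OrdDiv.spor]) h]; norm_num
  · left; rw [key .co3 495766656000 (by simp [OrdDiv.spor]) h]; norm_num
  · left; rw [key .mcl 898128000 (by simp [OrdDiv.spor]) h]; norm_num
  · left; rw [key .hs 44352000 (by simp [OrdDiv.spor]) h]; norm_num
  · left; rw [key .suz 448345497600 (by simp [OrdDiv.spor]) h]; norm_num
  · left; rw [key .he 4030387200 (by simp [OrdDiv.spor]) h]; norm_num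
  · left; rw [key .ru 145926144000 (by simp [OrdDiv.spor]) h]; norm_num
  · left; rw [key .on 460815505920 (by simp [OrdDiv.spor]) h]; norm_num
  · left; rw [key .ly 51765179004000000 (by simp [OrdDiv.spor]) h]; norm_num
  · left; rw [key .fi22 64561751654400 (by simp [OrdDiv.spor]) h]; norm_num
  · left; rw [key .fi23 4089470473293004800 (by simp [OrdDiv.spor]) h]; norm_num
  · left; rw [key .fi24 1255205709190661721292800 (by simp [OrdDiv.spor]) h]; norm_num
  · left; rw [key .hn 273030912000000 (by simp [OrdDiv.spor]) h]; norm_num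
  · left; rw [key .th 90745943887872000 (by simp [OrdDiv.spor]) h]; norm_num
  · left; rw [key .b 4154781481226426191177580544000000 (by simp [OrdDiv.spor]) h]; norm_num
  · left; rw [key .m 808017424794512875886459904961710757005754368000000000 (by simp [OrdDiv.spor]) h]; norm_num

/-- **The known simple groups of order prime to `r ∈ {3, 5, 7}`.** -/
theorem filter (T : OrdDiv.OrderTable.{0}) {G : Type} [Group G] [Finite G]
    (hna : ¬ IsMulCommutative G) (hk : IsKnownSimple' G) {r : ℕ} (hr : r = 3 ∨ r = 5 ∨ r = 7)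
    (hd : ¬ r ∣ Nat.card G) :
    Nonempty (G ≃* alternatingGroup (Fin 5)) ∨ Nonempty (G ≃* alternatingGroup (Fin 6)) ∨
    IsPSL G ∨ IsPSp G ∨ IsPSU G ∨ Lie.IsoChevG2 G ∨ Lie.Iso3D4 G ∨ Lie.IsoSuzuki G ∨ Lie.IsoRee G ∨
    Lie.Iso2F4 G ∨ Lie.IsoTits G ∨ Spor.IsoM11 G ∨ Spor.IsoM12 G ∨ Spor.IsoJ3 G := by
  have hrp : r.Prime := by rcases hr with rfl | rfl | rfl <;> norm_num
  rcases hk with h | h | h | h | h | h | h | h | h | h
  · exfalso
    apply hna
    have : Fact (Nat.card G).Prime := ⟨h⟩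
    have : IsCyclic G := isCyclic_of_prime_card (p := Nat.card G) rfl
    exact IsCyclic.isMulCommutative (α := G)
  · obtain ⟨n, hn, ⟨e⟩⟩ := h
    have hn7 : n < 7 := by
      by_contra hcon
      push Not at hcon
      apply hd
      have h1 := alt_card hn e
      have h2 : r ∣ n.factorial := hrp.dvd_factorial.2 (by omega)
      rw [h1] at h2
      rcases (Nat.Prime.dvd_mul hrp).1 h2 with h3 | h3
      · have := Nat.le_of_dvd (by norm_num) h3
        omega
      · exact h3
    have hn56 : n = 5 ∨ n = 6 := by omega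
    rcases hn56 with rfl | rfl
    · exact Or.inl ⟨e⟩
    · exact Or.inr (Or.inl ⟨e⟩)
  · tauto
  · tauto
  · tauto
  · exfalso
    obtain ⟨F, _, _, m, hm, ho, ⟨e⟩⟩ := h
    apply hd
    rw [Nat.card_congr e.toEquiv]
    have h1 := S0292.result (F := F) rfl ho m hm
    have h2 := dvd_prod (q := Fintype.card F) (a := m ^ 2) hr (by nlinarith) hm
    rw [← h1] at h2
    exact (coprime_of hr (by norm_num)).dvd_of_dvd_mul_left h2
  · exfalso
    obtain ⟨F, _, _, m, hm, ⟨e⟩⟩ := h
    apply hd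
    rw [Nat.card_congr e.toEquiv]
    have h1 := S0293.result (F := F) rfl m hm
    have h2 := (dvd_prod (q := Fintype.card F) (a := m * (m - 1)) (m := m - 1) hr
      (Nat.mul_pos (by omega) (by omega)) (by omega)).mul_left (Fintype.card F ^ m - 1)
    have he : (Fintype.card F ^ m - 1) * (Fintype.card F ^ (m * (m - 1)) *
        ∏ i ∈ Finset.range (m - 1), (Fintype.card F ^ (2 * (i + 1)) - 1)) =
        Fintype.card F ^ (m * (m - 1)) * (Fintype.card F ^ m - 1) *
        ∏ i ∈ Finset.range (m - 1), (Fintype.card F ^ (2 * (i + 1)) - 1) := by ring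
    rw [he, ← h1] at h2
    exact (coprime_of hr (Nat.gcd_dvd_left _ _)).dvd_of_dvd_mul_left h2
  · exfalso
    obtain ⟨F, _, _, m, a, b, hm, hab, ⟨e⟩⟩ := h
    apply hd
    rw [Nat.card_congr e.toEquiv]
    have h1 := S0294.result (F := F) rfl m hm a b hab
    have h2 := (dvd_prod (q := Fintype.card F) (a := m * (m - 1)) (m := m - 1) hr
      (Nat.mul_pos (by omega) (by omega)) (by omega)).mul_left (Fintype.card F ^ m + 1)
    have he : (Fintype.card F ^ m + 1) * (Fintype.card F ^ (m * (m - 1)) *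
        ∏ i ∈ Finset.range (m - 1), (Fintype.card F ^ (2 * (i + 1)) - 1)) =
        Fintype.card F ^ (m * (m - 1)) * (Fintype.card F ^ m + 1) *
        ∏ i ∈ Finset.range (m - 1), (Fintype.card F ^ (2 * (i + 1)) - 1) := by ring
    rw [he, ← h1] at h2
    exact (coprime_of hr (Nat.gcd_dvd_left _ _)).dvd_of_dvd_mul_left h2
  · rcases h with h | h | h | h | h | h | h | h | h | h | h
    · tauto
    · exfalso
      obtain ⟨F, _, _, ⟨e⟩⟩ := h
      apply hd
      rw [Nat.card_congr e.toEquiv, T.f4 F _ rfl]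
      refine (exc (q := Fintype.card F) (a := 24) hr (by norm_num)
        ((Fintype.card F ^ 2 - 1) * (Fintype.card F ^ 6 - 1))).trans (dvd_of_eq ?_)
      ring
    · exfalso
      obtain ⟨F, _, _, ⟨e⟩⟩ := h
      apply hd
      rw [Nat.card_congr e.toEquiv]
      refine of_three hr (Nat.gcd_dvd_left 3 (Fintype.card F - 1)) (T.e6 F _ rfl) (fun _ => ?_) ?_
      · refine (nine (q := Fintype.card F) (a := 36) (by norm_num) ((Fintype.card F ^ 5 - 1) *
          (Fintype.card F ^ 8 - 1) * (Fintype.card F ^ 9 - 1) * (Fintype.card F ^ 12 - 1))).trans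
          (dvd_of_eq ?_)
        ring
      · refine (exc (q := Fintype.card F) (a := 36) hr (by norm_num)
          ((Fintype.card F ^ 2 - 1) * (Fintype.card F ^ 5 - 1) * (Fintype.card F ^ 6 - 1) *
            (Fintype.card F ^ 9 - 1))).trans (dvd_of_eq ?_)
        ring
    · exfalso
      obtain ⟨F, _, _, ⟨e⟩⟩ := h
      apply hd
      rw [Nat.card_congr e.toEquiv]
      refine (coprime_of hr ((Nat.gcd_dvd_left 2 (Fintype.card F - 1)).trans
        (by norm_num))).dvd_of_dvd_mul_left ?_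
      rw [T.e7 F _ rfl]
      refine (exc (q := Fintype.card F) (a := 63) hr (by norm_num)
        ((Fintype.card F ^ 2 - 1) * (Fintype.card F ^ 6 - 1) * (Fintype.card F ^ 10 - 1) *
          (Fintype.card F ^ 14 - 1) * (Fintype.card F ^ 18 - 1))).trans (dvd_of_eq ?_)
      ring
    · exfalso
      obtain ⟨F, _, _, ⟨e⟩⟩ := h
      apply hd
      rw [Nat.card_congr e.toEquiv, T.e8 F _ rfl]
      refine (exc (q := Fintype.card F) (a := 120) hr (by norm_num)
        ((Fintype.card F ^ 2 - 1) * (Fintype.card F ^ 14 - 1) * (Fintype.card F ^ 18 - 1) *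
          (Fintype.card F ^ 20 - 1) * (Fintype.card F ^ 24 - 1) *
          (Fintype.card F ^ 30 - 1))).trans (dvd_of_eq ?_)
      ring
    · exfalso
      obtain ⟨F, _, _, q, hq, hF, ⟨e⟩⟩ := h
      apply hd
      rw [Nat.card_congr e.toEquiv]
      refine of_three hr (Nat.gcd_dvd_left 3 (q + 1)) (T.te6 F q hq hF) (fun _ => ?_) ?_
      · refine (nine (q := q) (a := 36) (by norm_num) ((q ^ 5 + 1) *
          (q ^ 8 - 1) * (q ^ 9 + 1) * (q ^ 12 - 1))).trans (dvd_of_eq ?_)
        ring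
      · refine (exc (q := q) (a := 36) hr (by norm_num)
          ((q ^ 2 - 1) * (q ^ 5 + 1) * (q ^ 6 - 1) * (q ^ 9 + 1))).trans (dvd_of_eq ?_)
        ring
    · tauto
    · tauto
    · tauto
    · tauto
    · tauto
  · rcases spor T h with h | h | h | h
    · exfalso
      apply hd
      refine dvd_trans ?_ h
      rcases hr with rfl | rfl | rfl <;> norm_num
    · tauto
    · tauto
    · tauto

end Cfsg.Agent.H540.Filter
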