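import Cfsg.Agent.H540.Blocks
import Cfsg.Agent.H553.PermClass

/-!
# Class numbers of permutation groups of order prime to `p`: reduction steps
-/

set_option autoImplicit false

namespace Cfsg.Agent.H540.PermRed

open MulAction Cfsg.Agent.H539.BlockRed Cfsg.Agent.H540.ClassNum Cfsg.Agent.H540.Blocks

/-- the square of the bound -/
def sq : ℕ → ℕ
  | 0 => 1
  | 1 => 1
  | 2 => 4
  | (n+3) => 3 ^ (n+2)

theorem sq_three {n : ℕ} (h : 3 ≤ n) : sq n = 3 ^ (n - 1) := by
  obtain ⟨k, rfl⟩ := Nat.exists_eq_add_of_le' h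
  rfl

theorem sq_mul_le {a b : ℕ} (ha : 1 ≤ a) (hb : 1 ≤ b) : sq a * sq b ≤ sq (a + b) := by
  have key : ∀ a b : ℕ, 1 ≤ a → 1 ≤ b → a ≤ b → sq a * sq b ≤ sq (a + b) := by
    intro a b ha hb hab
    rcases Nat.lt_or_ge b 3 with hb3 | hb3
    · interval_cases b <;> interval_cases a <;> decide
    · rw [sq_three hb3, sq_three (by omega : 3 ≤ a + b)]
      rcases Nat.lt_or_ge a 3 with ha3 | ha3
      · interval_cases a
        · change 1 * _ ≤ _
          rw [one_mul]
          exact Nat.pow_le_pow_right (by norm_num) (by omega)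
        · change 4 * _ ≤ _
          have : 2 + b - 1 = (b - 1) + 2 := by omega
          rw [this, pow_add]
          nlinarith [Nat.pow_pos (n := b - 1) (show 0 < 3 by norm_num)]
      · rw [sq_three ha3, ← pow_add]
        exact Nat.pow_le_pow_right (by norm_num) (by omega)
  rcases le_total a b with h | h
  · exact key a b ha hb h
  · rw [mul_comm, add_comm]
    exact key b a hb ha h

/-- all permutation groups of degree `n` and order prime to `p` have `k² ≤ sq n`. -/
def PB (p n : ℕ) : Prop :=
  ∀ S : Subgroup (Equiv.Perm (Fin n)), ¬ p ∣ Nat.card S → Nat.card (ConjClasses S) ^ 2 ≤ sq n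

theorem PB.of_injective {p n : ℕ} (h : PB p n) {G : Type*} [Group G] {α : Type*} [Finite α]
    (hα : Nat.card α = n) (f : G →* Equiv.Perm α) (hf : Function.Injective f)
    (hp : ¬ p ∣ Nat.card G) : Nat.card (ConjClasses G) ^ 2 ≤ sq n := by
  have := Fintype.ofFinite α
  let e : α ≃ Fin n := Fintype.equivFinOfCardEq (by rw [← Nat.card_eq_fintype_card]; exact hα)
  let g : G →* Equiv.Perm (Fin n) := (e.permCongrHom).toMonoidHom.comp f
  have hg : Function.Injective g := (e.permCongrHom).injective.comp hf
  rw [card_conjClasses_congr (MonoidHom.ofInjective hg)]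
  refine h g.range ?_
  rwa [← Nat.card_congr (MonoidHom.ofInjective hg).toEquiv]

/-- quotients and subgroups of the group -/
theorem not_dvd_range {p : ℕ} {G H : Type*} [Group G] [Group H] [Finite G]
    (hp : ¬ p ∣ Nat.card G) (f : G →* H) : ¬ p ∣ Nat.card f.range := fun h =>
  hp (h.trans (Subgroup.card_range_dvd f))

theorem not_dvd_sub {p : ℕ} {G : Type*} [Group G] [Finite G]
    (hp : ¬ p ∣ Nat.card G) (M : Subgroup G) : ¬ p ∣ Nat.card M := fun h =>
  hp (h.trans (Subgroup.card_subgroup_dvd_card M))

theorem PB.range {p n : ℕ} (h : PB p n) {G : Type*} [Group G] [Finite G] {α : Type*} [Finite α]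
    (hα : Nat.card α = n) (f : G →* Equiv.Perm α)
    (hp : ¬ p ∣ Nat.card G) : Nat.card (ConjClasses f.range) ^ 2 ≤ sq n :=
  h.of_injective hα f.range.subtype Subtype.coe_injective (not_dvd_range hp f)

/-- the intransitive case -/
theorem intransitive {p : ℕ} {G : Type*} [Group G] [Finite G] {α : Type*} [Finite α]
    [MulAction G α] [FaithfulSMul G α] (hp : ¬ p ∣ Nat.card G) (x₀ : α)
    (hG : ¬ IsPretransitive G α) (ih : ∀ m, m < Nat.card α → PB p m) :
    Nat.card (ConjClasses G) ^ 2 ≤ sq (Nat.card α) := by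
  classical
  let P : α → Prop := fun x => x ∈ orbit G x₀
  have hP : ∀ (g : G) (x : α), P (toPermHom G α g x) ↔ P x := by
    intro g x
    change g • x ∈ orbit G x₀ ↔ x ∈ orbit G x₀
    constructor
    · rintro ⟨k, hk⟩
      refine ⟨g⁻¹ * k, ?_⟩
      have hk' : k • x₀ = g • x := hk
      change (g⁻¹ * k) • x₀ = x
      rw [mul_smul, hk', inv_smul_smul]
    · rintro ⟨k, hk⟩
      refine ⟨g * k, ?_⟩
      have hk' : k • x₀ = x := hk
      change (g * k) • x₀ = g • x
      rw [mul_smul, hk']
  have hP' : ∀ (g : G) (x : α), ¬ P (toPermHom G α g x) ↔ ¬ P x := fun g x => not_congr (hP g x)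
  let ρ := Cfsg.Agent.H553.PermClass.resHom (toPermHom G α) P hP
  let ρ' := Cfsg.Agent.H553.PermClass.resHom (toPermHom G α) (fun x => ¬ P x) hP'
  have hcard : Nat.card {x // P x} + Nat.card {x // ¬ P x} = Nat.card α := by
    rw [← Nat.card_sum]
    exact Nat.card_congr (Equiv.sumCompl P)
  have h1 : 1 ≤ Nat.card {x // P x} := by
    have : Nonempty {x // P x} := ⟨⟨x₀, mem_orbit_self x₀⟩⟩
    exact Nat.card_pos
  have h2 : 1 ≤ Nat.card {x // ¬ P x} := by
    by_contra h0
    apply hG
    have h0' : Nat.card {x // ¬ P x} = 0 := by omega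
    have hem : IsEmpty {x // ¬ P x} := by
      rcases Nat.card_eq_zero.1 h0' with h | h
      · exact h
      · exact absurd (inferInstance : Finite {x // ¬ P x}) (not_finite_iff_infinite.2 h)
    have hall : ∀ x : α, x ∈ orbit G x₀ := by
      intro x
      by_contra hx
      exact hem.false ⟨x, hx⟩
    refine ⟨fun x y => ?_⟩
    obtain ⟨g, hg⟩ := hall x
    obtain ⟨k, hk⟩ := hall y
    refine ⟨k * g⁻¹, ?_⟩
    have hg' : g • x₀ = x := hg
    have hk' : k • x₀ = y := hk
    rw [← hg', mul_smul, inv_smul_smul, hk']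
  have hk1 : Nat.card (ConjClasses ρ.range) ^ 2 ≤ sq (Nat.card {x // P x}) :=
    (ih _ (by omega)).range rfl ρ hp
  have hk2 : Nat.card (ConjClasses ρ.ker) ^ 2 ≤ sq (Nat.card {x // ¬ P x}) := by
    refine (ih _ (by omega)).of_injective rfl (ρ'.comp ρ.ker.subtype) ?_ (not_dvd_sub hp _)
    rw [injective_iff_map_eq_one]
    intro g hg
    apply Subtype.ext
    rw [Subgroup.coe_one]
    apply FaithfulSMul.eq_of_smul_eq_smul (α := α)
    intro x
    rw [one_smul]
    by_cases hx : P x
    · have h3 : ρ g.1 = 1 := g.2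
      exact congrArg (fun e : Equiv.Perm {x // P x} => ((e ⟨x, hx⟩ : _) : α)) h3
    · exact congrArg (fun e : Equiv.Perm {x // ¬ P x} => ((e ⟨x, hx⟩ : _) : α)) hg
  calc Nat.card (ConjClasses G) ^ 2
      ≤ (Nat.card (ConjClasses ρ.ker) * Nat.card (ConjClasses ρ.range)) ^ 2 :=
        Nat.pow_le_pow_left (le_ker_mul_range ρ) 2
    _ = Nat.card (ConjClasses ρ.range) ^ 2 * Nat.card (ConjClasses ρ.ker) ^ 2 := by ring
    _ ≤ sq (Nat.card {x // P x}) * sq (Nat.card {x // ¬ P x}) := Nat.mul_le_mul hk1 hk2
    _ ≤ sq (Nat.card {x // P x} + Nat.card {x // ¬ P x}) := sq_mul_le h1 h2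
    _ = _ := by rw [hcard]

/-- faithful action of the kernel on the union of the classes -/
theorem fib_faithful {G : Type*} [Group G] {α : Type*} [MulAction G α] [FaithfulSMul G α]
    (r : Setoid α) (hr : Inv G r) (g : (quotHom r hr).ker) (hg : ∀ q, fibHom r hr q g = 1) :
    g = 1 := by
  apply Subtype.ext
  apply FaithfulSMul.eq_of_smul_eq_smul (α := α)
  intro x
  have h1 := congrArg (fun σ => ((σ : Equiv.Perm _) ⟨x, rfl⟩ : {y : α // Quotient.mk r y = Quotient.mk r x}).1)
    (hg (Quotient.mk r x))
  simpa [fibHom] using h1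

/-- many large blocks -/
theorem large_blocks {p : ℕ} {G : Type*} [Group G] [Finite G] {α : Type*} [Finite α]
    [MulAction G α] [FaithfulSMul G α] [IsPretransitive G α] (hp : ¬ p ∣ Nat.card G)
    (r : Setoid α) (hr : Inv G r) (q₀ : Quotient r) (hs : 3 ≤ Nat.card (Cls r q₀))
    (hm : 3 ≤ Nat.card (Quotient r)) (ih : ∀ m, m < Nat.card α → PB p m) :
    Nat.card (ConjClasses G) ^ 2 ≤ 3 ^ (Nat.card α - 1) := by
  classical
  have hn := card_eq_mul hr q₀
  set s := Nat.card (Cls r q₀) with hsdef
  set m := Nat.card (Quotient r) with hmdef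
  have hsn : s < Nat.card α := by rw [hn]; nlinarith
  have hmn : m < Nat.card α := by rw [hn]; nlinarith
  have := Fintype.ofFinite (Quotient r)
  have hker : Nat.card (ConjClasses (quotHom r hr).ker) ≤
      ∏ _q : Quotient r, Nat.sqrt (3 ^ (s - 1)) := by
    refine family (fun q => (fibHom r hr q).rangeRestrict) (fun _ => Nat.sqrt (3 ^ (s - 1))) ?_ ?_
    · intro q M
      have h1 : Nat.card (Cls r q) = s := card_cls_eq hr q q₀
      have h2 := (ih s hsn).of_injective (G := M) (α := Cls r q) h1
        ((fibHom r hr q).range.subtype.comp M.subtype)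
        (Subtype.coe_injective.comp Subtype.coe_injective)
        (not_dvd_sub (not_dvd_range (not_dvd_sub hp _) _) _)
      rw [sq_three hs] at h2
      rw [Nat.le_sqrt']
      exact h2
    · intro g hg
      refine fib_faithful r hr g fun q => ?_
      have h1 := congrArg Subtype.val (hg q)
      exact h1
  rw [Finset.prod_const, Finset.card_univ, ← Nat.card_eq_fintype_card, ← hmdef] at hker
  have hker2 : Nat.card (ConjClasses (quotHom r hr).ker) ^ 2 ≤ 3 ^ ((s - 1) * m) := by
    calc Nat.card (ConjClasses (quotHom r hr).ker) ^ 2 ≤ ((Nat.sqrt (3 ^ (s - 1))) ^ m) ^ 2 :=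
          Nat.pow_le_pow_left hker 2
      _ = ((Nat.sqrt (3 ^ (s - 1))) ^ 2) ^ m := by rw [← pow_mul, ← pow_mul, mul_comm]
      _ ≤ (3 ^ (s - 1)) ^ m := Nat.pow_le_pow_left (Nat.sqrt_le' _) m
      _ = _ := by rw [← pow_mul]
  have hrange : Nat.card (ConjClasses (quotHom r hr).range) ^ 2 ≤ 3 ^ (m - 1) := by
    have h1 := (ih m hmn).range (α := Quotient r) rfl (quotHom r hr) hp
    rwa [sq_three hm] at h1
  calc Nat.card (ConjClasses G) ^ 2
      ≤ (Nat.card (ConjClasses (quotHom r hr).ker) * Nat.card (ConjClasses (quotHom r hr).range)) ^ 2 :=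
        Nat.pow_le_pow_left (le_ker_mul_range _) 2
    _ = Nat.card (ConjClasses (quotHom r hr).ker) ^ 2 *
        Nat.card (ConjClasses (quotHom r hr).range) ^ 2 := by ring
    _ ≤ 3 ^ ((s - 1) * m) * 3 ^ (m - 1) := Nat.mul_le_mul hker2 hrange
    _ = 3 ^ (Nat.card α - 1) := by
        rw [← pow_add, hn]
        congr 1
        have h3 : s * m = (s - 1) * m + m := by
          obtain ⟨t, ht⟩ := Nat.exists_eq_add_of_le' (show 1 ≤ s by omega)
          rw [ht, Nat.add_sub_cancel]; ring
        rw [mul_comm m s]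
        omega

section Two

variable {G : Type*} [Group G] [Finite G] {α : Type*} [Finite α]
    [MulAction G α] [FaithfulSMul G α]

theorem perm_sq {β : Type*} [Finite β] (hβ : Nat.card β = 2) (σ : Equiv.Perm β) : σ * σ = 1 := by
  classical
  have := Fintype.ofFinite β
  have h1 : Nat.card (Equiv.Perm β) = 2 := by
    rw [Nat.card_eq_fintype_card, Fintype.card_perm, ← Nat.card_eq_fintype_card, hβ]; rfl
  have h2 : σ ^ Nat.card (Equiv.Perm β) = 1 := pow_card_eq_one'
  rwa [h1, pow_two] at h2

theorem ker_sq (r : Setoid α) (hr : Inv G r) (hs : ∀ q : Quotient r, Nat.card (Cls r q) = 2)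
    (x : (quotHom r hr).ker) : x * x = 1 := by
  refine fib_faithful r hr _ fun q => ?_
  rw [map_mul]
  exact perm_sq (hs q) _

theorem card_ker_le (r : Setoid α) (hr : Inv G r) (hs : ∀ q : Quotient r, Nat.card (Cls r q) = 2) :
    Nat.card (quotHom r hr).ker ≤ 2 ^ Nat.card (Quotient r) := by
  classical
  have := Fintype.ofFinite (Quotient r)
  have hinj : Function.Injective (fun (x : (quotHom r hr).ker) (q : Quotient r) => fibHom r hr q x) := by
    intro x y hxy
    have h1 : x * y⁻¹ = 1 := by
      refine fib_faithful r hr _ fun q => ?_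
      rw [map_mul, map_inv, mul_inv_eq_one]
      exact congrFun hxy q
    exact mul_inv_eq_one.1 h1
  have h2 := Nat.card_le_card_of_injective _ hinj
  rw [Nat.card_pi] at h2
  refine h2.trans (le_of_eq ?_)
  have h3 : ∀ q : Quotient r, Nat.card (Equiv.Perm (Cls r q)) = 2 := by
    intro q
    have := Fintype.ofFinite (Cls r q)
    rw [Nat.card_eq_fintype_card, Fintype.card_perm, ← Nat.card_eq_fintype_card, hs]; rfl
  rw [Finset.prod_congr rfl (fun q _ => h3 q), Finset.prod_const, Finset.card_univ,
    ← Nat.card_eq_fintype_card]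

theorem blocks_two (r : Setoid α) (hr : Inv G r)
    (hs : ∀ q : Quotient r, Nat.card (Cls r q) = 2)
    (hprim : IsPreprimitive (quotHom r hr).range (Quotient r)) :
    Nat.card (ConjClasses G) ≤ 2 * Nat.card (ConjClasses (quotHom r hr).range) ∨
    2 * (Nat.card (quotHom r hr).range * Nat.card (ConjClasses G)) ≤
      2 ^ Nat.card (Quotient r) * (Nat.card (quotHom r hr).range *
        Nat.card (ConjClasses (quotHom r hr).range) + 1) := by
  classical
  set K : Subgroup G := (quotHom r hr).ker with hK
  have hKn : K.Normal := by rw [hK]; infer_instance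
  have hsq : ∀ x ∈ K, x * x = 1 := by
    intro x hx
    exact congrArg Subtype.val (ker_sq r hr hs ⟨x, hx⟩)
  have hab : ∀ a ∈ K, ∀ b ∈ K, a * b = b * a := by
    intro a ha b hb
    have h1 := hsq _ ha
    have h2 := hsq _ hb
    have h3 := hsq _ (K.mul_mem ha hb)
    have e1 : a⁻¹ = a := inv_eq_of_mul_eq_one_left h1
    have e2 : b⁻¹ = b := inv_eq_of_mul_eq_one_left h2
    have e3 : (a * b)⁻¹ = a * b := inv_eq_of_mul_eq_one_left h3
    rw [mul_inv_rev, e1, e2] at e3
    exact e3.symm
  by_cases hC : Subgroup.centralizer (K : Set G) ≤ K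
  · right
    have : Fact (Nat.Prime 2) := ⟨Nat.prime_two⟩
    have hpg : IsPGroup 2 K := by
      intro x
      refine ⟨1, ?_⟩
      rw [pow_one, pow_two]
      exact Subtype.ext (hsq _ x.2)
    have h1 := HalfBound.half_bound K 2 hpg hab hC
    have e := QuotientGroup.quotientKerEquivRange (quotHom r hr)
    have e1 : Nat.card (G ⧸ K) = Nat.card (quotHom r hr).range := Nat.card_congr e.toEquiv
    have e2 : Nat.card (ConjClasses (G ⧸ K)) = Nat.card (ConjClasses (quotHom r hr).range) :=
      card_conjClasses_congr e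
    rw [e1, e2] at h1
    exact h1.trans (Nat.mul_le_mul_right _ (card_ker_le r hr hs))
  · left
    -- the centralizer is transitive on the classes
    set C : Subgroup G := Subgroup.centralizer (K : Set G) with hCdef
    have hCn : C.Normal := by
      rw [hCdef]; infer_instance
    let C' : Subgroup (quotHom r hr).range := C.map (quotHom r hr).rangeRestrict
    have hC'n : C'.Normal := hCn.map _ (quotHom r hr).rangeRestrict_surjective
    have htr : IsPretransitive C' (Quotient r) := by
      apply IsQuasiPreprimitive.isPretransitive_of_normal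
      intro hfix
      apply hC
      intro c hc
      rw [hK, MonoidHom.mem_ker]
      ext q
      have h1 : q ∈ fixedPoints C' (Quotient r) := by rw [hfix]; trivial
      have h2 := h1 ⟨(quotHom r hr).rangeRestrict c, Subgroup.mem_map_of_mem _ hc⟩
      exact h2
    have hcard : Nat.card K ≤ 2 := by
      rcases isEmpty_or_nonempty (Quotient r) with hem | ⟨⟨q₀⟩⟩
      · have : Subsingleton K := by
          refine ⟨fun x y => ?_⟩
          have h1 : x * y⁻¹ = 1 := fib_faithful r hr _ fun q => (hem.false q).elim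
          exact mul_inv_eq_one.1 h1
        have := (Finite.card_le_one_iff_subsingleton (α := K)).2 this
        omega
      · have hinj : Function.Injective (fibHom r hr q₀) := by
          rw [injective_iff_map_eq_one]
          intro x hx
          apply Subtype.ext
          rw [Subgroup.coe_one]
          apply FaithfulSMul.eq_of_smul_eq_smul (α := α)
          intro y
          rw [one_smul]
          obtain ⟨⟨_, ⟨c, hc, rfl⟩⟩, hcq⟩ := exists_smul_eq C' (Quotient.mk r y) q₀
          have hcq' : Quotient.mk r (c • y) = q₀ := hcq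
          have h3 : x.1 • (c • y) = c • y := by
            have := congrArg (fun σ : Equiv.Perm (Cls r q₀) => (σ ⟨c • y, hcq'⟩).1) hx
            simpa [fibHom] using this
          have h4 : x.1 * c = c * x.1 := (Subgroup.mem_centralizer_iff.1 hc) x.1 x.2
          rw [smul_smul, h4, mul_smul] at h3
          exact smul_left_cancel c h3
        have h1 := Nat.card_le_card_of_injective _ hinj
        have := Fintype.ofFinite (Cls r q₀)
        have h2 : Nat.card (Equiv.Perm (Cls r q₀)) = 2 := by
          rw [Nat.card_eq_fintype_card, Fintype.card_perm, ← Nat.card_eq_fintype_card, hs]; rfl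
        rwa [h2] at h1
    calc Nat.card (ConjClasses G) ≤ Nat.card (ConjClasses K) * Nat.card (ConjClasses (quotHom r hr).range) :=
          le_ker_mul_range (quotHom r hr)
      _ ≤ 2 * Nat.card (ConjClasses (quotHom r hr).range) :=
          Nat.mul_le_mul_right _ ((card_conjClasses_le_card).trans hcard)

end Two

end Cfsg.Agent.H540.PermRed
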