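import Cfsg.Agent.H540.PermRed

/-!
# Class numbers of permutation groups with two blocks
-/

set_option autoImplicit false

namespace Cfsg.Agent.H540.PermTwo

open MulAction Cfsg.Agent.H539.BlockRed Cfsg.Agent.H540.ClassNum Cfsg.Agent.H540.Blocks
  Cfsg.Agent.H540.PermRed

section

variable {G : Type*} [Group G] {α : Type*} [MulAction G α]

/-- the elements fixing all classes and fixing the class `q` pointwise -/
def Nq (r : Setoid α) (hr : Inv G r) (q : Quotient r) : Subgroup G where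
  carrier := {g | g ∈ (quotHom r hr).ker ∧ ∀ x, Quotient.mk r x = q → g • x = x}
  one_mem' := ⟨one_mem _, fun x _ => one_smul _ x⟩
  mul_mem' := by
    rintro a b ⟨ha, ha'⟩ ⟨hb, hb'⟩
    refine ⟨mul_mem ha hb, fun x hx => ?_⟩
    rw [mul_smul, hb' x hx, ha' x hx]
  inv_mem' := by
    rintro a ⟨ha, ha'⟩
    refine ⟨inv_mem ha, fun x hx => ?_⟩
    rw [inv_smul_eq_iff, ha' x hx]

theorem quotHom_mk' (r : Setoid α) (hr : Inv G r) (g : G) (x : α) :
    quotHom r hr g (Quotient.mk r x) = Quotient.mk r (g • x) := rfl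

theorem mem_Nq {r : Setoid α} {hr : Inv G r} {q : Quotient r} {g : G} :
    g ∈ Nq r hr q ↔ g ∈ (quotHom r hr).ker ∧ ∀ x, Quotient.mk r x = q → g • x = x := Iff.rfl

theorem conj_Nq {r : Setoid α} {hr : Inv G r} {q q' : Quotient r} (x : G)
    (hq : quotHom r hr x q = q') {a : G} (ha : a ∈ Nq r hr q) : x * a * x⁻¹ ∈ Nq r hr q' := by
  refine ⟨(inferInstance : (quotHom r hr).ker.Normal).conj_mem a ha.1 x, fun y hy => ?_⟩
  have h1 : Quotient.mk r (x⁻¹ • y) = q := by
    have h2 : quotHom r hr x (Quotient.mk r (x⁻¹ • y)) = quotHom r hr x q := by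
      rw [quotHom_mk', smul_inv_smul, hy, hq]
    exact (quotHom r hr x).injective h2
  rw [mul_smul, mul_smul, ha.2 _ h1, smul_inv_smul]

theorem ker_fibHom_equiv (r : Setoid α) (hr : Inv G r) (q : Quotient r) :
    Nonempty ((fibHom r hr q).ker ≃* Nq r hr q) := by
  refine ⟨MulEquiv.mk' (Equiv.mk (fun x => ⟨x.1.1, x.1.2, fun y hy => ?_⟩)
    (fun x => ⟨⟨x.1, x.2.1⟩, ?_⟩) (fun x => rfl) (fun x => rfl)) ?_⟩
  · have h1 : fibHom r hr q x.1 = 1 := x.2
    have := congrArg (fun σ : Equiv.Perm (Cls r q) => (σ ⟨y, hy⟩).1) h1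
    simpa [fibHom] using this
  · rw [MonoidHom.mem_ker]
    ext y
    have := x.2.2 y.1 y.2
    simpa [fibHom] using this
  · intro x y
    rfl

end

section

variable {G : Type*} [Group G] [Finite G] {α : Type*} [Finite α]
    [MulAction G α] [FaithfulSMul G α] [IsPretransitive G α]

theorem two_classes {p : ℕ} (hp : ¬ p ∣ Nat.card G)
    (r : Setoid α) (hr : Inv G r) (hm : Nat.card (Quotient r) = 2) (q₁ : Quotient r)
    (hPB : PB p (Nat.card (Cls r q₁))) :
    ∃ κ ν ρ : ℕ, κ ≤ ν ∧ κ ^ 2 ≤ PermRed.sq (Nat.card (Cls r q₁)) ∧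
      ρ * ν ≤ Nat.card (fibHom r hr q₁).range ∧
      Nat.card (ConjClasses G) ≤ 2 * (κ * Nat.card (ConjClasses (fibHom r hr q₁).range)) ∧
      2 * Nat.card (ConjClasses G) ≤ κ * Nat.card (ConjClasses (fibHom r hr q₁).range) + 3 * (ρ * κ) := by
  classical
  -- the other class
  obtain ⟨q₂, hq₂⟩ : ∃ q₂ : Quotient r, q₂ ≠ q₁ := by
    have := (Finite.one_lt_card_iff_nontrivial (α := Quotient r)).1 (by omega)
    exact exists_ne q₁
  have hall : ∀ q : Quotient r, q = q₁ ∨ q = q₂ := by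
    intro q
    have h1 := (Nat.card_eq_two_iff' q₁).1 hm
    obtain ⟨z, _, hz⟩ := h1
    by_cases hq : q = q₁
    · exact Or.inl hq
    · right
      rw [hz q hq, hz q₂ hq₂]
  set K : Subgroup G := (quotHom r hr).ker with hKdef
  have hKn : K.Normal := by rw [hKdef]; infer_instance
  have hK2 : ∀ x : G, x ∉ K → quotHom r hr x q₁ = q₂ ∧ quotHom r hr x q₂ = q₁ := by
    intro x hx
    rcases hall (quotHom r hr x q₁) with h1 | h1
    · exfalso
      apply hx
      rw [hKdef, MonoidHom.mem_ker]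
      ext q
      rw [Equiv.Perm.one_apply]
      rcases hall q with h2 | h2
      · rw [h2, h1]
      · rw [h2]
        rcases hall (quotHom r hr x q₂) with h3 | h3
        · exact absurd ((quotHom r hr x).injective (h3.trans h1.symm)) hq₂
        · exact h3
    · refine ⟨h1, ?_⟩
      rcases hall (quotHom r hr x q₂) with h3 | h3
      · exact h3
      · exact absurd ((quotHom r hr x).injective (h3.trans h1.symm)) hq₂
  have hKq : ∀ x ∈ K, ∀ q, quotHom r hr x q = q := by
    intro x hx q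
    have h1 : quotHom r hr x = 1 := hx
    rw [h1]; rfl
  have hKi : K.index = 2 := by
    have h1 : Nat.card (Equiv.Perm (Quotient r)) = 2 := by
      have := Fintype.ofFinite (Quotient r)
      rw [Nat.card_eq_fintype_card, Fintype.card_perm, ← Nat.card_eq_fintype_card, hm]; rfl
    have h2 : K.index = Nat.card (quotHom r hr).range := by
      rw [hKdef]; exact Subgroup.index_ker _
    have h3 : Nat.card (quotHom r hr).range ∣ 2 := by
      rw [← h1]; exact Subgroup.card_subgroup_dvd_card _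
    rcases (Nat.dvd_prime Nat.prime_two).1 h3 with h4 | h4
    · exfalso
      have htop : K = ⊤ := by
        rw [← Subgroup.index_eq_one, h2, h4]
      obtain ⟨x₁, hx₁⟩ := Quotient.exists_rep q₁
      obtain ⟨x₂, hx₂⟩ := Quotient.exists_rep q₂
      obtain ⟨g, hg⟩ := exists_smul_eq G x₁ x₂
      have h5 := hKq g (by rw [htop]; trivial) q₁
      rw [← hx₁, quotHom_mk', hg, hx₂, hx₁] at h5
      exact hq₂ h5
    · rw [h2, h4]
  set N₁ : Subgroup G := Nq r hr q₂ with hN₁
  set N₂ : Subgroup G := Nq r hr q₁ with hN₂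
  have h1K : N₁ ≤ K := fun x hx => hx.1
  have h2K : N₂ ≤ K := fun x hx => hx.1
  have hn1 : ∀ x ∈ K, ∀ a ∈ N₁, x * a * x⁻¹ ∈ N₁ := fun x hx a ha => conj_Nq x (hKq x hx _) ha
  have hn2 : ∀ x ∈ K, ∀ a ∈ N₂, x * a * x⁻¹ ∈ N₂ := fun x hx a ha => conj_Nq x (hKq x hx _) ha
  have hdisj : N₁ ⊓ N₂ = ⊥ := by
    rw [eq_bot_iff]
    rintro g ⟨h1, h2⟩
    rw [Subgroup.mem_bot]
    apply FaithfulSMul.eq_of_smul_eq_smul (α := α)
    intro x
    rw [one_smul]
    rcases hall (Quotient.mk r x) with h3 | h3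
    · exact h2.2 x h3
    · exact h1.2 x h3
  have h12 : ∀ x ∉ K, ∀ a ∈ N₁, x⁻¹ * a * x ∈ N₂ := by
    intro x hx a ha
    have hx' : x⁻¹ ∉ K := fun h => hx (by simpa using inv_mem h)
    have := conj_Nq x⁻¹ (hK2 x⁻¹ hx').2 ha
    rwa [inv_inv] at this
  have h21 : ∀ x ∉ K, ∀ a ∈ N₂, x⁻¹ * a * x ∈ N₁ := by
    intro x hx a ha
    have hx' : x⁻¹ ∉ K := fun h => hx (by simpa using inv_mem h)
    have := conj_Nq x⁻¹ (hK2 x⁻¹ hx').1 ha
    rwa [inv_inv] at this
  have hsw := Swap.swap_bound K N₁ N₂ hKi h1K h2K hn1 hn2 hdisj h12 h21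
  -- an element outside
  obtain ⟨x₀, hx₀⟩ : ∃ x, x ∉ K := by
    by_contra hcon
    push Not at hcon
    have : K = ⊤ := by rw [eq_top_iff]; exact fun x _ => hcon x
    rw [this, Subgroup.index_top] at hKi
    omega
  have hcardN : Nat.card N₁ = Nat.card N₂ := by
    apply le_antisymm
    · refine Nat.card_le_card_of_injective (fun a : N₁ => (⟨x₀⁻¹ * a.1 * x₀, h12 x₀ hx₀ _ a.2⟩ : N₂)) ?_
      intro a b hab
      have := congrArg Subtype.val hab
      simpa using this
    · refine Nat.card_le_card_of_injective (fun a : N₂ => (⟨x₀⁻¹ * a.1 * x₀, h21 x₀ hx₀ _ a.2⟩ : N₁)) ?_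
      intro a b hab
      have := congrArg Subtype.val hab
      simpa using this
  obtain ⟨e⟩ := ker_fibHom_equiv r hr q₁
  set X := (fibHom r hr q₁).range with hX
  have hkK : Nat.card (ConjClasses K) ≤ Nat.card (ConjClasses N₂) * Nat.card (ConjClasses X) := by
    have h1 := le_ker_mul_range (fibHom r hr q₁)
    rwa [card_conjClasses_congr e] at h1
  have hcK : Nat.card K = Nat.card N₂ * Nat.card X := by
    have h1 := Subgroup.card_mul_index (fibHom r hr q₁).ker
    rw [Subgroup.index_ker, Nat.card_congr e.toEquiv] at h1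
    exact h1.symm
  have hrel : (N₁ ⊔ N₂).relIndex K * Nat.card N₂ ≤ Nat.card X := by
    have hle : N₁ ⊔ N₂ ≤ K := sup_le h1K h2K
    have h1 : Nat.card N₁ * Nat.card N₂ ≤ Nat.card (N₁ ⊔ N₂ : Subgroup G) := by
      rw [← Nat.card_prod]
      refine Nat.card_le_card_of_injective (fun x : N₁ × N₂ => (⟨x.1.1 * x.2.1,
        mul_mem (le_sup_left (a := N₁) x.1.2) (le_sup_right (a := N₁) x.2.2)⟩ : (N₁ ⊔ N₂ : Subgroup G))) ?_
      intro x y hxy
      have h2 : x.1.1 * x.2.1 = y.1.1 * y.2.1 := congrArg Subtype.val hxy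
      exact Subgroup.mul_injective_of_disjoint (disjoint_iff.2 hdisj) h2
    have h2 : (N₁ ⊔ N₂).relIndex K * Nat.card (N₁ ⊔ N₂ : Subgroup G) = Nat.card K := by
      have e1 := Subgroup.relIndex_mul_relIndex ⊥ (N₁ ⊔ N₂) K bot_le hle
      rw [Subgroup.relIndex_bot_left, Subgroup.relIndex_bot_left, mul_comm] at e1
      exact e1
    have h3 : (N₁ ⊔ N₂).relIndex K * (Nat.card N₂ * Nat.card N₂) ≤ Nat.card N₂ * Nat.card X := by
      rw [← hcK, ← h2]
      apply Nat.mul_le_mul_left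
      rw [hcardN] at h1
      exact h1
    have hpos : 0 < Nat.card N₂ := Nat.card_pos
    have h4 : Nat.card N₂ * ((N₁ ⊔ N₂).relIndex K * Nat.card N₂) ≤ Nat.card N₂ * Nat.card X := by
      calc _ = (N₁ ⊔ N₂).relIndex K * (Nat.card N₂ * Nat.card N₂) := by ring
        _ ≤ _ := h3
    exact Nat.le_of_mul_le_mul_left h4 hpos
  refine ⟨Nat.card (ConjClasses N₂), Nat.card N₂, (N₁ ⊔ N₂).relIndex K, card_conjClasses_le_card, ?_,
    hrel, ?_, ?_⟩
  · -- `N₂` acts faithfully on the other class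
    have h1 : Nat.card (Cls r q₂) = Nat.card (Cls r q₁) := card_cls_eq hr q₂ q₁
    let f : N₂ →* Equiv.Perm (Cls r q₂) := (fibHom r hr q₂).comp (Subgroup.inclusion h2K)
    refine hPB.of_injective h1 f ?_ (not_dvd_sub hp _)
    rw [injective_iff_map_eq_one]
    intro g hg
    apply Subtype.ext
    rw [Subgroup.coe_one]
    apply FaithfulSMul.eq_of_smul_eq_smul (α := α)
    intro x
    rw [one_smul]
    rcases hall (Quotient.mk r x) with h3 | h3
    · exact g.2.2 x h3
    · have := congrArg (fun σ : Equiv.Perm (Cls r q₂) => (σ ⟨x, h3⟩).1) hg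
      simpa [f, fibHom] using this
  · have h1 : Nat.card (ConjClasses G) ≤ 2 * Nat.card (ConjClasses K) := by
      have := le_index_mul' K
      rwa [hKi] at this
    exact h1.trans (Nat.mul_le_mul_left _ hkK)
  · exact hsw.trans (Nat.add_le_add_right hkK _)

theorem two_classes_bound {p : ℕ} (hp : ¬ p ∣ Nat.card G)
    (r : Setoid α) (hr : Inv G r) (hm : Nat.card (Quotient r) = 2) (q₁ : Quotient r)
    (hs : 3 ≤ Nat.card (Cls r q₁))
    (hPB : PB p (Nat.card (Cls r q₁)))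
    (hX : 4 * Nat.card (ConjClasses (fibHom r hr q₁).range) ^ 2 ≤ 3 ^ Nat.card (Cls r q₁) ∨
      (Nat.card (Cls r q₁) = 3 ∧ Nat.card (ConjClasses (fibHom r hr q₁).range) ≤ 3) ∨
      (Nat.card (Cls r q₁) = 4 ∧ Nat.card (ConjClasses (fibHom r hr q₁).range) ≤ 5) ∨
      (Nat.card (Cls r q₁) = 8 ∧ Nat.card (ConjClasses (fibHom r hr q₁).range) ≤ 41)) :
    Nat.card (ConjClasses G) ^ 2 ≤ 3 ^ (2 * Nat.card (Cls r q₁) - 1) := by
  obtain ⟨κ, ν, ρ, hκν, hκ, hρ, hG1, hG2⟩ := two_classes hp r hr hm q₁ hPB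
  have hXc : Nat.card (fibHom r hr q₁).range ≤ (Nat.card (Cls r q₁)).factorial := by
    have h1 := Subgroup.card_le_card_group (fibHom r hr q₁).range
    have := Fintype.ofFinite (Cls r q₁)
    classical
    rwa [Nat.card_eq_fintype_card (α := Equiv.Perm (Cls r q₁)), Fintype.card_perm,
      ← Nat.card_eq_fintype_card] at h1
  generalize Nat.card (fibHom r hr q₁).range = cX at *
  generalize Nat.card (ConjClasses (fibHom r hr q₁).range) = kX at *
  generalize Nat.card (ConjClasses G) = k at *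
  generalize Nat.card (Cls r q₁) = s at *
  rw [sq_three hs] at hκ
  rcases hX with h | ⟨rfl, h⟩ | ⟨rfl, h⟩ | ⟨rfl, h⟩
  · calc k ^ 2 ≤ (2 * (κ * kX)) ^ 2 := Nat.pow_le_pow_left hG1 2
      _ = κ ^ 2 * (4 * kX ^ 2) := by ring
      _ ≤ 3 ^ (s - 1) * 3 ^ s := Nat.mul_le_mul hκ h
      _ = 3 ^ (2 * s - 1) := by
        rw [← pow_add]; congr 1; omega
  · have hκ3 : κ ≤ 3 := by
      by_contra hcon
      push Not at hcon
      have : 4 ^ 2 ≤ κ ^ 2 := Nat.pow_le_pow_left hcon 2
      norm_num at hκ this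
      omega
    have hc6 : cX ≤ 6 := hXc
    have hk : k ≤ 15 := by
      interval_cases κ
      · omega
      · omega
      · omega
      · have h3 : ρ * 3 ≤ 6 := (Nat.mul_le_mul_left ρ hκν).trans (hρ.trans hc6)
        omega
    calc k ^ 2 ≤ 15 ^ 2 := Nat.pow_le_pow_left hk 2
      _ ≤ _ := by norm_num
  · have hκ5 : κ ≤ 5 := by
      by_contra hcon
      push Not at hcon
      have : 6 ^ 2 ≤ κ ^ 2 := Nat.pow_le_pow_left hcon 2
      norm_num at hκ this
      omega
    have hc24 : cX ≤ 24 := hXc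
    have hk : k ≤ 46 := by
      interval_cases κ
      · omega
      · omega
      · omega
      · omega
      · omega
      · have h3 : ρ * 5 ≤ 24 := (Nat.mul_le_mul_left ρ hκν).trans (hρ.trans hc24)
        omega
    calc k ^ 2 ≤ 46 ^ 2 := Nat.pow_le_pow_left hk 2
      _ ≤ _ := by norm_num
  · have hκ46 : κ ≤ 46 := by
      by_contra hcon
      push Not at hcon
      have : 47 ^ 2 ≤ κ ^ 2 := Nat.pow_le_pow_left hcon 2
      norm_num at hκ this
      omega
    have hk : k ≤ 3772 := by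
      calc k ≤ 2 * (κ * kX) := hG1
        _ ≤ 2 * (46 * 41) := Nat.mul_le_mul_left _ (Nat.mul_le_mul hκ46 h)
        _ = 3772 := by norm_num
    calc k ^ 2 ≤ 3772 ^ 2 := Nat.pow_le_pow_left hk 2
      _ ≤ _ := by norm_num

end

end Cfsg.Agent.H540.PermTwo
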